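import Mathlib
import Cfsg.Agent.Classical.Linear.Bases

/-!
Products of two conjugates in dimension three: normal forms of non-scalar matrices and the
triangular factorisation.
-/

set_option autoImplicit false

namespace CfsgLib.Psl3Cover

open Matrix

variable {F : Type*} [Field F]

/-- Similarity of square matrices. -/
def Sim (A B : Matrix (Fin 3) (Fin 3) F) : Prop :=
  ∃ P Q : Matrix (Fin 3) (Fin 3) F, P * Q = 1 ∧ A = P * B * Q

/-- `G` is a product of two matrices similar to `D`. -/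
def Prod2 (D G : Matrix (Fin 3) (Fin 3) F) : Prop :=
  ∃ B C : Matrix (Fin 3) (Fin 3) F, Sim B D ∧ Sim C D ∧ G = B * C

theorem Sim.trans {A B C : Matrix (Fin 3) (Fin 3) F} (h : Sim A B) (h' : Sim B C) : Sim A C := by
  obtain ⟨P, Q, hPQ, rfl⟩ := h
  obtain ⟨R, S, hRS, rfl⟩ := h'
  refine ⟨P * R, S * Q, ?_, by simp only [Matrix.mul_assoc]⟩
  rw [Matrix.mul_assoc P R, ← Matrix.mul_assoc R S Q, hRS, Matrix.one_mul, hPQ]

theorem Sim.symm {A B : Matrix (Fin 3) (Fin 3) F} (h : Sim A B) : Sim B A := by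
  obtain ⟨P, Q, hPQ, rfl⟩ := h
  have hQP : Q * P = 1 := mul_eq_one_comm.1 hPQ
  refine ⟨Q, P, hQP, ?_⟩
  rw [← Matrix.mul_assoc, ← Matrix.mul_assoc, hQP, Matrix.one_mul, Matrix.mul_assoc, hQP,
    Matrix.mul_one]

theorem Sim.det_eq {A B : Matrix (Fin 3) (Fin 3) F} (h : Sim A B) : A.det = B.det := by
  obtain ⟨P, Q, hPQ, rfl⟩ := h
  have : P.det * Q.det = 1 := by rw [← Matrix.det_mul, hPQ, Matrix.det_one]
  rw [Matrix.det_mul, Matrix.det_mul]
  linear_combination B.det * this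

theorem Prod2.of_sim {D G G' : Matrix (Fin 3) (Fin 3) F} (h : Sim G G') (h' : Prod2 D G') :
    Prod2 D G := by
  obtain ⟨P, Q, hPQ, rfl⟩ := h
  obtain ⟨B, C, hB, hC, rfl⟩ := h'
  have hQP : Q * P = 1 := mul_eq_one_comm.1 hPQ
  refine ⟨P * B * Q, P * C * Q, Sim.trans ⟨P, Q, hPQ, rfl⟩ hB, Sim.trans ⟨P, Q, hPQ, rfl⟩ hC, ?_⟩
  calc P * (B * C) * Q = P * B * 1 * C * Q := by simp only [Matrix.mul_one, Matrix.mul_assoc]
    _ = P * B * Q * (P * C * Q) := by rw [← hQP]; simp only [Matrix.mul_assoc]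

/-- A non-scalar matrix is similar to one with first column `(1, 1, 0)`. -/
theorem exists_sim_col (M : Matrix.SpecialLinearGroup (Fin 3) F)
    (hM : M ∉ Subgroup.center (Matrix.SpecialLinearGroup (Fin 3) F)) :
    ∃ G : Matrix (Fin 3) (Fin 3) F, Sim (M : Matrix (Fin 3) (Fin 3) F) G ∧
      G 0 0 = 1 ∧ G 1 0 = 1 ∧ G 2 0 = 0 := by
  obtain ⟨v, hv⟩ : ∃ v : Fin 3 → F,
      LinearIndependent F ![v, (M : Matrix (Fin 3) (Fin 3) F) *ᵥ v] := by
    by_contra hc
    push Not at hc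
    obtain ⟨a, ha⟩ := (Matrix.toLin' (M : Matrix (Fin 3) (Fin 3) F)
      ).exists_eq_smul_id_of_forall_notLinearIndependent (fun v => hc v)
    apply hM
    have hs : (M : Matrix (Fin 3) (Fin 3) F) = Matrix.scalar (Fin 3) a := by
      apply Matrix.toLin'.injective
      rw [ha]
      ext v i
      simp [Pi.single_apply, Matrix.diagonal_apply]
    refine Matrix.SpecialLinearGroup.mem_center_iff.2 ⟨a, ?_, hs.symm⟩
    have := M.2
    rw [hs] at this
    simpa using this
  set u := (M : Matrix (Fin 3) (Fin 3) F) *ᵥ v - v with hu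
  have hvu : LinearIndependent F ![v, u] := by
    rw [LinearIndependent.pair_iff] at hv ⊢
    intro s t hst
    have := hv (s - t) t (by rw [← hst, hu, sub_smul, smul_sub]; abel)
    exact ⟨by linear_combination this.1 + this.2, this.2⟩
  have he : LinearIndependent F ![(Pi.single 0 1 : Fin 3 → F), Pi.single 1 1] := by
    rw [LinearIndependent.pair_iff]
    intro s t hst
    exact ⟨by simpa using congrFun hst 0, by simpa using congrFun hst 1⟩
  obtain ⟨g, hg⟩ := CfsgLib.Classical.Linear.exists_gl_map_family he hvu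
  set P : Matrix (Fin 3) (Fin 3) F := (g : Matrix (Fin 3) (Fin 3) F) with hP
  set Q : Matrix (Fin 3) (Fin 3) F := ((g⁻¹ : GL (Fin 3) F) : Matrix (Fin 3) (Fin 3) F) with hQ
  have hQP : Q * P = 1 := by rw [hP, hQ, ← Units.val_mul, inv_mul_cancel, Units.val_one]
  have hPQ : P * Q = 1 := mul_eq_one_comm.1 hQP
  refine ⟨Q * (M : Matrix (Fin 3) (Fin 3) F) * P, ⟨P, Q, hPQ, ?_⟩, ?_⟩
  · calc (M : Matrix (Fin 3) (Fin 3) F) = (P * Q) * (M : Matrix (Fin 3) (Fin 3) F) * (P * Q) := by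
          rw [hPQ, Matrix.one_mul, Matrix.mul_one]
      _ = _ := by simp only [Matrix.mul_assoc]
  have h0 : P *ᵥ Pi.single 0 1 = v := hg 0
  have h1 : P *ᵥ Pi.single 1 1 = u := hg 1
  have hcol : (Q * (M : Matrix (Fin 3) (Fin 3) F) * P) *ᵥ Pi.single 0 1 =
      Pi.single 0 1 + Pi.single 1 1 := by
    rw [← Matrix.mulVec_mulVec, h0, ← Matrix.mulVec_mulVec,
      show (M : Matrix (Fin 3) (Fin 3) F) *ᵥ v = P *ᵥ (Pi.single 0 1 + Pi.single 1 1) by
        rw [Matrix.mulVec_add, h0, h1, hu]; abel,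
      Matrix.mulVec_mulVec, hQP, Matrix.one_mulVec]
  rw [Matrix.mulVec_single_one] at hcol
  exact ⟨by simpa using congrFun hcol 0, by simpa using congrFun hcol 1,
    by simpa using congrFun hcol 2⟩

/-- Shift of the last basis vector by a multiple of the first. -/
theorem sim_shift02 (a b c d e f g h i x : F) :
    Sim !![a, b, c; d, e, f; g, h, i]
      !![a - x * g, b - x * h, (a - x * g) * x + (c - x * i);
        d, e, d * x + f; g, h, g * x + i] := by
  refine ⟨!![1, 0, x; 0, 1, 0; 0, 0, 1], !![1, 0, -x; 0, 1, 0; 0, 0, 1], ?_, ?_⟩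
  · ext p q
    fin_cases p <;> fin_cases q <;> simp [Matrix.mul_apply, Fin.sum_univ_three]
  · ext p q
    fin_cases p <;> fin_cases q <;> simp [Matrix.mul_apply, Fin.sum_univ_three] <;> ring

theorem sim_shift12 (a b c d e f g h i x : F) :
    Sim !![a, b, c; d, e, f; g, h, i]
      !![a, b, b * x + c; d - x * g, e - x * h, (e - x * h) * x + (f - x * i);
        g, h, h * x + i] := by
  refine ⟨!![1, 0, 0; 0, 1, x; 0, 0, 1], !![1, 0, 0; 0, 1, -x; 0, 0, 1], ?_, ?_⟩
  · ext p q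
    fin_cases p <;> fin_cases q <;> simp [Matrix.mul_apply, Fin.sum_univ_three]
  · ext p q
    fin_cases p <;> fin_cases q <;> simp [Matrix.mul_apply, Fin.sum_univ_three] <;> ring

theorem sim_shift21 (a b c d e f g h i x : F) :
    Sim !![a, b, c; d, e, f; g, h, i]
      !![a, b + x * c, c; d, e + x * f, f; g - x * d, (h - x * e) + x * (i - x * f), i - x * f] := by
  refine ⟨!![1, 0, 0; 0, 1, 0; 0, x, 1], !![1, 0, 0; 0, 1, 0; 0, -x, 1], ?_, ?_⟩
  · ext p q
    fin_cases p <;> fin_cases q <;> simp [Matrix.mul_apply, Fin.sum_univ_three]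
  · ext p q
    fin_cases p <;> fin_cases q <;> simp [Matrix.mul_apply, Fin.sum_univ_three] <;> ring

/-- A non-scalar element of `SL₃` is similar to one whose first two pivots are `1`. -/
theorem exists_sim_pivots (M : Matrix.SpecialLinearGroup (Fin 3) F)
    (hM : M ∉ Subgroup.center (Matrix.SpecialLinearGroup (Fin 3) F)) :
    ∃ G : Matrix (Fin 3) (Fin 3) F, Sim (M : Matrix (Fin 3) (Fin 3) F) G ∧
      G 0 0 = 1 ∧ G 0 0 * G 1 1 - G 0 1 * G 1 0 = 1 := by
  obtain ⟨G, hsim, h00, h10, h20⟩ := exists_sim_col M hM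
  have hdet : G.det = 1 := hsim.det_eq.symm.trans M.2
  rw [Matrix.det_fin_three, h00, h10, h20] at hdet
  have hG : G = !![1, G 0 1, G 0 2; 1, G 1 1, G 1 2; 0, G 2 1, G 2 2] := by
    ext p q
    fin_cases p <;> fin_cases q <;> simp [h00, h10, h20]
  generalize G 0 1 = b, G 0 2 = c, G 1 1 = e, G 1 2 = f, G 2 1 = h, G 2 2 = i at hdet hG
  subst hG
  by_cases hh : h = 0
  · subst hh
    have hi : i ≠ 0 := fun hi => by subst hi; simp at hdet
    by_cases hs : f - c = 0
    · have h1 := hsim.trans (sim_shift02 1 b c 1 e f 0 0 i 1)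
      have h2 := h1.trans (sim_shift21 _ _ _ _ _ _ _ _ _ ((1 - e + b) / i))
      refine ⟨_, h2, by simp, ?_⟩
      simp
      field_simp
      linear_combination (1 - e + b) * hs
    · have h2 := hsim.trans (sim_shift21 1 b c 1 e f 0 0 i ((1 - e + b) / (f - c)))
      refine ⟨_, h2, by simp, ?_⟩
      simp
      field_simp
      ring
  · have h2 := hsim.trans (sim_shift12 1 b c 1 e f 0 h i ((e - b - 1) / h))
    refine ⟨_, h2, by simp, ?_⟩
    simp
    field_simp
    ring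

/-- Lower triangular matrices with distinct diagonal are diagonalisable. -/
theorem sim_lower (a b c m n o : F) (hab : a ≠ b) (hbc : b ≠ c) (hac : a ≠ c) :
    Sim !![a, 0, 0; m, b, 0; n, o, c] !![a, 0, 0; 0, b, 0; 0, 0, c] := by
  set p := m / (a - b) with hp
  set s := o / (b - c) with hs
  set r := (n + o * p) / (a - c) with hr
  have e1 : p * (a - b) = m := div_mul_cancel₀ _ (sub_ne_zero.2 hab)
  have e2 : s * (b - c) = o := div_mul_cancel₀ _ (sub_ne_zero.2 hbc)
  have e3 : r * (a - c) = n + o * p := div_mul_cancel₀ _ (sub_ne_zero.2 hac)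
  refine ⟨!![1, 0, 0; p, 1, 0; r, s, 1], !![1, 0, 0; -p, 1, 0; p * s - r, -s, 1], ?_, ?_⟩
  · ext x y
    fin_cases x <;> fin_cases y <;> simp [Matrix.mul_apply, Fin.sum_univ_three] <;> ring
  · ext x y
    fin_cases x <;> fin_cases y <;> simp [Matrix.mul_apply, Fin.sum_univ_three] <;>
      first
        | ring1
        | linear_combination -e1
        | linear_combination -e2
        | linear_combination -e3 + p * e2

/-- Upper triangular matrices with distinct diagonal are diagonalisable. -/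
theorem sim_upper (a b c m n o : F) (hab : a ≠ b) (hbc : b ≠ c) (hac : a ≠ c) :
    Sim !![a, m, n; 0, b, o; 0, 0, c] !![a, 0, 0; 0, b, 0; 0, 0, c] := by
  set p := m / (b - a) with hp
  set s := o / (c - b) with hs
  set r := (n + m * s) / (c - a) with hr
  have e1 : p * (b - a) = m := div_mul_cancel₀ _ (sub_ne_zero.2 hab.symm)
  have e2 : s * (c - b) = o := div_mul_cancel₀ _ (sub_ne_zero.2 hbc.symm)
  have e3 : r * (c - a) = n + m * s := div_mul_cancel₀ _ (sub_ne_zero.2 hac.symm)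
  refine ⟨!![1, p, r; 0, 1, s; 0, 0, 1], !![1, -p, p * s - r; 0, 1, -s; 0, 0, 1], ?_, ?_⟩
  · ext x y
    fin_cases x <;> fin_cases y <;> simp [Matrix.mul_apply, Fin.sum_univ_three] <;> ring
  · ext x y
    fin_cases x <;> fin_cases y <;> simp [Matrix.mul_apply, Fin.sum_univ_three] <;>
      first
        | ring1
        | linear_combination -e1
        | linear_combination -e2
        | linear_combination -e3 + s * e1

theorem sim_swap12 (a b c : F) :
    Sim !![a, 0, 0; 0, b, 0; 0, 0, c] !![a, 0, 0; 0, c, 0; 0, 0, b] := by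
  refine ⟨!![1, 0, 0; 0, 0, 1; 0, 1, 0], !![1, 0, 0; 0, 0, 1; 0, 1, 0], ?_, ?_⟩
  · ext x y
    fin_cases x <;> fin_cases y <;> simp [Matrix.mul_apply, Fin.sum_univ_three]
  · ext x y
    fin_cases x <;> fin_cases y <;> simp [Matrix.mul_apply, Fin.sum_univ_three]

/-- A matrix with pivots `1, 1, 1` is a product of two conjugates of `diag(1, l, l⁻¹)`. -/
theorem prod2_of_pivots {G : Matrix (Fin 3) (Fin 3) F} (hdet : G.det = 1) (h00 : G 0 0 = 1)
    (hmin : G 0 0 * G 1 1 - G 0 1 * G 1 0 = 1) {l : F} (hl : l ≠ 0) (hl2 : l ^ 2 ≠ 1) :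
    Prod2 !![1, 0, 0; 0, l, 0; 0, 0, l⁻¹] G := by
  have h1 : (1 : F) ≠ l := fun h => hl2 (by rw [← h]; simp)
  have h2 : (1 : F) ≠ l⁻¹ := fun h => hl2 (by rw [eq_comm, inv_eq_one] at h; simp [h])
  have h3 : l ≠ l⁻¹ := fun h => hl2 (by
    rw [sq]; nth_rw 2 [h]; exact mul_inv_cancel₀ hl)
  have hG : G = !![G 0 0, G 0 1, G 0 2; G 1 0, G 1 1, G 1 2; G 2 0, G 2 1, G 2 2] := by
    ext p q
    fin_cases p <;> fin_cases q <;> rfl
  rw [Matrix.det_fin_three] at hdet
  rw [h00] at hmin hdet hG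
  generalize G 0 1 = b, G 0 2 = c, G 1 0 = d, G 1 1 = e, G 1 2 = f, G 2 0 = g, G 2 1 = h,
    G 2 2 = i at hdet hmin hG
  subst hG
  refine ⟨!![1, 0, 0; d, l, 0; g, (h - g * b) * l, l⁻¹],
    !![1, b, c; 0, l⁻¹, l⁻¹ * (f - d * c); 0, 0, l], ?_, ?_, ?_⟩
  · exact sim_lower _ _ _ _ _ _ h1 h3 h2
  · exact (sim_upper _ _ _ _ _ _ h2 h3.symm h1).trans (sim_swap12 _ _ _)
  · have he : e = 1 + b * d := by linear_combination hmin
    ext x y
    fin_cases x <;> fin_cases y <;> simp [Matrix.mul_apply, Fin.sum_univ_three] <;>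
      field_simp <;>
      first
        | ring1
        | linear_combination he
        | linear_combination hdet - (i - g * c) * hmin
        | linear_combination -(hdet - (i - g * c) * hmin)

/-- A similarity to a matrix commuting with a determinant-`c` matrix for every `c` is a
conjugation inside `SL₃`. -/
theorem exists_sl_conj {B : Matrix (Fin 3) (Fin 3) F} (D : Matrix.SpecialLinearGroup (Fin 3) F)
    (hD : ∀ c : F, ∃ E : Matrix (Fin 3) (Fin 3) F, E.det = c ∧
      E * (D : Matrix (Fin 3) (Fin 3) F) = (D : Matrix (Fin 3) (Fin 3) F) * E)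
    (h : Sim B (D : Matrix (Fin 3) (Fin 3) F)) :
    ∃ P : Matrix.SpecialLinearGroup (Fin 3) F,
      ((P * D * P⁻¹ : Matrix.SpecialLinearGroup (Fin 3) F) : Matrix (Fin 3) (Fin 3) F) = B := by
  obtain ⟨P, Q, hPQ, rfl⟩ := h
  have hdet : P.det * Q.det = 1 := by rw [← Matrix.det_mul, hPQ, Matrix.det_one]
  obtain ⟨E, hE, hcomm⟩ := hD Q.det
  set R : Matrix.SpecialLinearGroup (Fin 3) F := ⟨P * E, by rw [Matrix.det_mul, hE, hdet]⟩ with hR
  refine ⟨R, ?_⟩
  have hRm : (R : Matrix (Fin 3) (Fin 3) F) = P * E := rfl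
  calc ((R * D * R⁻¹ : Matrix.SpecialLinearGroup (Fin 3) F) : Matrix (Fin 3) (Fin 3) F)
      = (P * (D : Matrix (Fin 3) (Fin 3) F) * (Q * P)) * E *
          ((R⁻¹ : Matrix.SpecialLinearGroup (Fin 3) F) : Matrix (Fin 3) (Fin 3) F) := by
        rw [mul_eq_one_comm.1 hPQ, Matrix.mul_one, Matrix.SpecialLinearGroup.coe_mul,
          Matrix.SpecialLinearGroup.coe_mul, hRm, Matrix.mul_assoc P E, hcomm, ← Matrix.mul_assoc P]
    _ = P * (D : Matrix (Fin 3) (Fin 3) F) * Q *
          ((R : Matrix (Fin 3) (Fin 3) F) *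
            ((R⁻¹ : Matrix.SpecialLinearGroup (Fin 3) F) : Matrix (Fin 3) (Fin 3) F)) := by
        rw [hRm]; simp only [Matrix.mul_assoc]
    _ = _ := by
        rw [← Matrix.SpecialLinearGroup.coe_mul, mul_inv_cancel, Matrix.SpecialLinearGroup.coe_one,
          Matrix.mul_one]

/-- Descent to `SL₃`: every non-central element is a product of two conjugates of `D`. -/
theorem exists_conj_mul (D M : Matrix.SpecialLinearGroup (Fin 3) F)
    (hD : ∀ c : F, ∃ E : Matrix (Fin 3) (Fin 3) F, E.det = c ∧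
      E * (D : Matrix (Fin 3) (Fin 3) F) = (D : Matrix (Fin 3) (Fin 3) F) * E)
    (h : Prod2 (D : Matrix (Fin 3) (Fin 3) F) (M : Matrix (Fin 3) (Fin 3) F)) :
    ∃ u v : Matrix.SpecialLinearGroup (Fin 3) F, M = (u * D * u⁻¹) * (v * D * v⁻¹) := by
  obtain ⟨B, C, hB, hC, hM⟩ := h
  obtain ⟨u, hu⟩ := exists_sl_conj D hD hB
  obtain ⟨v, hv⟩ := exists_sl_conj D hD hC
  refine ⟨u, v, Subtype.ext ?_⟩
  rw [Matrix.SpecialLinearGroup.coe_mul (u * D * u⁻¹), hu, hv, hM]

end CfsgLib.Psl3Cover
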